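import Cfsg.Agent.H120.OZ.ChevEl
import Cfsg.Agent.GpExc.Field
import Cfsg.Agent.H234.HT.ExcDefs

/-!
# S4933, exceptional groups, `e = 1, 2`: the element `y` in the node `SL₂(q)` (helper120)

`f : F →+* k` fields, `|F| = q`, `z ∈ k` with `z ^ (q - 1) = 1` or `z ^ (q + 1) = 1 ≠ z ^ 2`.

* `base_change` : the node homomorphisms `Ψ : SL₂(F) → D.group F` and `Φ : SL₂(k) → D.group k` commute with `f`;
* `exists_sl` : a matrix in `SL₂(F)` conjugate over `k` to `diag(z, z⁻¹)`;
* `exists_y` : `y ∈ D.group F` whose image in `D.group k` is conjugate to `h_i(z)`;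
* `exists_y_diag` : the same in `GL D.Idx k` with `h_i(z) = diagonal (1, z ^ D.cartan i s)`;
* `longNode`, `card_two` : a long node `i` and `#{s | N ∣ D.cartan i s - 2} = 1` for `5 ≤ N` for `G2 F4 E6 E7 E8`.
-/

set_option autoImplicit false
set_option linter.unusedSectionVars false

namespace Cfsg.Agent.H120.HT

open Cfsg.Agent.H120.OZ
open CoxeterSystem Cfsg.Agent.ChevalleyStructure.CoxeterGeom Cfsg.Agent.Tits.Roots Cfsg.Agent.Tits.Core
  Cfsg.Agent.Nodes.Reps Cfsg.Agent.Nodes.BNOf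
  Cfsg.Agent.Nodes.OppDec Cfsg.Agent.Nodes.RGDChev Cfsg.Agent.KFacts.RgdChevCoord
open Cfsg.Lie Cfsg.Agent.ChevalleyStructure Cfsg.Agent.ChevalleyStructure.Elts
  Cfsg.Agent.ChevalleyStructure.RootVec Cfsg.Agent.ChevalleyStructure.RootVecTab
  Cfsg.Agent.ChevalleyStructure.NPerm Cfsg.Agent.ChevalleyStructure.CoxeterGeomTypes
open Cfsg.Agent.ChevalleyStructure.SL2Hom (up lo)
open Cfsg.Agent.H934.PQR.TorGen (tau)
open Cfsg.Agent.GpExc.Field (glMap emb coe_emb glMap_xG emb_injective coe_glMap)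

universe u v

section SL

variable {F : Type u} {k : Type v} [Field F] [Field k]

abbrev SLm (f : F →+* k) : Matrix.SpecialLinearGroup (Fin 2) F →* Matrix.SpecialLinearGroup (Fin 2) k :=
  Matrix.SpecialLinearGroup.map f

theorem map_up (f : F →+* k) (s : F) : SLm f (up s) = up (f s) := by
  apply Subtype.ext
  show (!![1, s; 0, 1] : Matrix (Fin 2) (Fin 2) F).map f = !![1, f s; 0, 1]
  ext i j
  fin_cases i <;> fin_cases j <;> simp

theorem map_lo (f : F →+* k) (s : F) : SLm f (lo s) = lo (f s) := by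
  apply Subtype.ext
  show (!![1, 0; s, 1] : Matrix (Fin 2) (Fin 2) F).map f = !![1, 0; f s, 1]
  ext i j
  fin_cases i <;> fin_cases j <;> simp

theorem mem_range_of_pow [Fintype F] (f : F →+* k) {t : k} (ht : t ^ Fintype.card F = t) : t ∈ Set.range f := by
  classical
  have hq : 1 < Fintype.card F := Fintype.one_lt_card
  have hp0 : (Polynomial.X ^ Fintype.card F - Polynomial.X : Polynomial k) ≠ 0 :=
    FiniteField.X_pow_card_sub_X_ne_zero k hq
  have h1 : Finset.univ.image f ⊆ (Polynomial.X ^ Fintype.card F - Polynomial.X : Polynomial k).roots.toFinset := by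
    intro y hy
    obtain ⟨x, -, rfl⟩ := Finset.mem_image.1 hy
    rw [Multiset.mem_toFinset, Polynomial.mem_roots hp0, Polynomial.IsRoot, Polynomial.eval_sub,
      Polynomial.eval_pow, Polynomial.eval_X, ← map_pow, FiniteField.pow_card, sub_self]
  have h2 : (Polynomial.X ^ Fintype.card F - Polynomial.X : Polynomial k).roots.toFinset.card ≤
      (Finset.univ.image f).card := by
    rw [Finset.card_image_of_injective _ f.injective, Finset.card_univ]
    refine (Multiset.toFinset_card_le _).trans ((Polynomial.card_roots' _).trans ?_)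
    rw [FiniteField.X_pow_card_sub_X_natDegree_eq k hq]
  have h3 := Finset.eq_of_subset_of_card_le h1 h2
  have h4 : t ∈ (Polynomial.X ^ Fintype.card F - Polynomial.X : Polynomial k).roots.toFinset := by
    rw [Multiset.mem_toFinset, Polynomial.mem_roots hp0, Polynomial.IsRoot, Polynomial.eval_sub,
      Polynomial.eval_pow, Polynomial.eval_X, ht, sub_self]
  rw [← h3] at h4
  obtain ⟨x, -, hx⟩ := Finset.mem_image.1 h4
  exact ⟨x, hx⟩

/-- the conjugating matrix for the companion matrix of `X² - (z + z⁻¹) X + 1` -/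
theorem companion_conj (z : kˣ) (hz2 : (z : k) ^ 2 ≠ 1) (A : Matrix.SpecialLinearGroup (Fin 2) k)
    (hA : A.1 = !![0, -1; 1, (z : k) + ((z⁻¹ : kˣ) : k)]) :
    ∃ P : Matrix.SpecialLinearGroup (Fin 2) k, A = P * tau z * P⁻¹ := by
  obtain ⟨w, hw⟩ : ∃ w : k, w = ((z⁻¹ : kˣ) : k) := ⟨_, rfl⟩
  have hzw : (z : k) * w = 1 := by rw [hw]; exact z.mul_inv
  have hne : (z : k) - w ≠ 0 := by
    intro h
    apply hz2
    have h1 : (z : k) = w := sub_eq_zero.1 h
    rw [sq]
    nth_rewrite 2 [h1]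
    exact hzw
  obtain ⟨s, hs⟩ : ∃ s : k, ((z : k) - w) * s = 1 := ⟨((z : k) - w)⁻¹, mul_inv_cancel₀ hne⟩
  have hdet : Matrix.det !![(1 : k), s; -(z : k), -(w * s)] = 1 := by
    rw [Matrix.det_fin_two_of]
    linear_combination hs
  obtain ⟨P, hP⟩ : ∃ P : Matrix.SpecialLinearGroup (Fin 2) k, P.1 = !![(1 : k), s; -(z : k), -(w * s)] :=
    ⟨⟨_, hdet⟩, rfl⟩
  refine ⟨P, ?_⟩
  rw [eq_mul_inv_iff_mul_eq]
  apply Subtype.ext
  show A.1 * P.1 = P.1 * (tau z).1
  rw [hA, hP, ← hw]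
  show !![(0 : k), -1; 1, (z : k) + w] * !![(1 : k), s; -(z : k), -(w * s)] =
    !![(1 : k), s; -(z : k), -(w * s)] * !![(z : k), 0; 0, ((z⁻¹ : kˣ) : k)]
  rw [← hw, Matrix.mul_fin_two, Matrix.mul_fin_two]
  congr 1
  funext i
  fin_cases i
  · funext j
    fin_cases j
    · show (0 : k) * 1 + -1 * -(z : k) = 1 * z + s * 0
      ring
    · show (0 : k) * s + -1 * -(w * s) = 1 * 0 + s * w
      ring
  · funext j
    fin_cases j
    · show (1 : k) * 1 + (z + w) * -(z : k) = -(z : k) * z + -(w * s) * 0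
      linear_combination (-1 : k) * hzw
    · show (1 : k) * s + (z + w) * -(w * s) = -(z : k) * 0 + -(w * s) * w
      linear_combination (-s) * hzw

/-- **a matrix of `SL₂(F)` conjugate over `k` to `diag(z, z⁻¹)`** -/
theorem exists_sl [Fintype F] (f : F →+* k) (z : kˣ)
    (hz : (z : k) ^ (Fintype.card F - 1) = 1 ∨ ((z : k) ^ (Fintype.card F + 1) = 1 ∧ (z : k) ^ 2 ≠ 1)) :
    ∃ A : Matrix.SpecialLinearGroup (Fin 2) F, ∃ P : Matrix.SpecialLinearGroup (Fin 2) k,
      SLm f A = P * tau z * P⁻¹ := by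
  have hq : 1 < Fintype.card F := Fintype.one_lt_card
  rcases hz with hz | ⟨hz, hz2⟩
  · obtain ⟨x, hx⟩ := mem_range_of_pow f (t := (z : k)) (by
      have h1 : Fintype.card F = (Fintype.card F - 1) + 1 := by omega
      rw [h1, pow_succ, hz, one_mul])
    have hx0 : x ≠ 0 := by
      rintro rfl
      rw [map_zero] at hx
      exact z.ne_zero hx.symm
    refine ⟨tau (Units.mk0 x hx0), 1, ?_⟩
    rw [one_mul, inv_one, mul_one]
    apply Subtype.ext
    show (!![x, 0; 0, (((Units.mk0 x hx0)⁻¹ : Fˣ) : F)] : Matrix (Fin 2) (Fin 2) F).map f =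
      !![(z : k), 0; 0, ((z⁻¹ : kˣ) : k)]
    ext i j
    fin_cases i <;> fin_cases j <;> simp [hx]
  · have hzw : (z : k) * ((z⁻¹ : kˣ) : k) = 1 := z.mul_inv
    have hzq : (z : k) ^ Fintype.card F = ((z⁻¹ : kˣ) : k) := by
      have h1 : (z : k) ^ Fintype.card F * (z : k) = 1 := by rw [← pow_succ]; exact hz
      calc (z : k) ^ Fintype.card F = (z : k) ^ Fintype.card F * ((z : k) * ((z⁻¹ : kˣ) : k)) := by rw [hzw, mul_one]
        _ = _ := by rw [← mul_assoc, h1, one_mul]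
    obtain ⟨p, hp⟩ := CharP.exists F
    have hpr : p.Prime := (CharP.char_is_prime_or_zero F p).resolve_right (by
      rintro rfl
      exact CharP.char_ne_zero_of_finite F 0 rfl)
    have : Fact p.Prime := ⟨hpr⟩
    have : CharP k p := (RingHom.charP_iff f f.injective p).1 hp
    obtain ⟨n, hn⟩ : ∃ n : ℕ, Fintype.card F = p ^ n := by
      obtain ⟨n, -, hn⟩ := FiniteField.card F p
      exact ⟨n, hn⟩
    obtain ⟨b, hb⟩ := mem_range_of_pow f (t := (z : k) + ((z⁻¹ : kˣ) : k)) (by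
      rw [hn, add_pow_char_pow, ← hn, hzq]
      have h2 : ((z⁻¹ : kˣ) : k) ^ Fintype.card F = (z : k) := by
        have h3 : (((z⁻¹ : kˣ) : k) ^ Fintype.card F) * ((z⁻¹ : kˣ) : k) = 1 := by
          rw [← hzq, ← pow_mul, ← pow_add]
          have h4 : Fintype.card F * Fintype.card F + Fintype.card F = (Fintype.card F + 1) * Fintype.card F := by ring
          rw [h4, pow_mul, hz, one_pow]
        calc _ = (((z⁻¹ : kˣ) : k) ^ Fintype.card F) * ((z : k) * ((z⁻¹ : kˣ) : k)) := by rw [hzw, mul_one]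
          _ = (z : k) * ((((z⁻¹ : kˣ) : k) ^ Fintype.card F) * ((z⁻¹ : kˣ) : k)) := by ring
          _ = _ := by rw [h3, mul_one]
      rw [h2, add_comm])
    obtain ⟨A, hA⟩ : ∃ A : Matrix.SpecialLinearGroup (Fin 2) F, A.1 = !![0, -1; 1, b] := ⟨⟨_, by simp⟩, rfl⟩
    obtain ⟨P, hP⟩ := companion_conj z hz2 (SLm f A) (by
      show A.1.map f = _
      rw [hA]
      ext i j
      fin_cases i <;> fin_cases j <;> simp [hb])
    exact ⟨_, P, hP⟩

end SL

section Chev

variable {D : ChevalleyDatum} {l : ℕ} {M : CoxeterMatrix (Fin l)} (hp : IsType D l M)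
  {F : Type u} {k : Type v} [Field F] [Field k]

theorem emb_xr (f : F →+* k) (r : ℕ) (s : F) : emb hp.inList f (xr hp r s) = xr hp r (f s) :=
  Subtype.ext (glMap_xG hp.inList f r s)

/-- **base change of the node homomorphisms** -/
theorem base_change (f : F →+* k) (i : Fin l) :
    ∃ Ψ : Matrix.SpecialLinearGroup (Fin 2) F →* ↥(D.group F),
    ∃ Φ : Matrix.SpecialLinearGroup (Fin 2) k →* ↥(D.group k),
      (∀ A, emb hp.inList f (Ψ A) = Φ (SLm f A)) ∧ (∀ s, Ψ (up s) = xr hp (D.simple i) s) ∧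
      (∀ s, Ψ (lo s) = xr hp (D.neg (D.simple i)) s) ∧ (∀ s, Φ (up s) = xr hp (D.simple i) s) ∧
      (∀ s, Φ (lo s) = xr hp (D.neg (D.simple i)) s) ∧ (∀ c : Fˣ, Ψ (tau c) = hc hp i (c : F)) ∧
      ∀ c : kˣ, Φ (tau c) = hc hp i (c : k) := by
  obtain ⟨Ψ, h1, h2, h3⟩ := exists_psi hp (K := F) i
  obtain ⟨Φ, h4, h5, h6⟩ := exists_psi hp (K := k) i
  refine ⟨Ψ, Φ, fun A => ?_, h1, h2, h4, h5, h3, h6⟩
  have h7 : Set.EqOn ((emb hp.inList f).comp Ψ) (Φ.comp (SLm f))
      (Set.range (up (F := F)) ∪ Set.range (lo (F := F))) := by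
    rintro _ (⟨s, rfl⟩ | ⟨s, rfl⟩)
    · show emb hp.inList f (Ψ (up s)) = Φ (SLm f (up s))
      rw [h1, map_up, h4, emb_xr]
    · show emb hp.inList f (Ψ (lo s)) = Φ (SLm f (lo s))
      rw [h2, map_lo, h5, emb_xr]
  have h8 : A ∈ Subgroup.closure (Set.range (up (F := F)) ∪ Set.range (lo (F := F))) := SL2Hom.mem_closure_SL2 A
  exact (MonoidHom.eqOn_closure h7) h8

/-- **the element `y`**: `e = 1` or `2` -/
theorem exists_y [Fintype F] (f : F →+* k) (i : Fin l) (z : kˣ)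
    (hz : (z : k) ^ (Fintype.card F - 1) = 1 ∨ ((z : k) ^ (Fintype.card F + 1) = 1 ∧ (z : k) ^ 2 ≠ 1)) :
    ∃ y : ↥(D.group F), ∃ g : ↥(D.group k), emb hp.inList f y = g * hc hp i (z : k) * g⁻¹ := by
  obtain ⟨Ψ, Φ, h1, -, -, -, -, -, h2⟩ := base_change hp f i
  obtain ⟨A, P, hA⟩ := exists_sl f z hz
  refine ⟨Ψ A, Φ P, ?_⟩
  rw [h1, hA, map_mul, map_mul, map_inv, h2]

end Chev

/-! ### the tables -/

section Tab

set_option maxRecDepth 100000
set_option maxHeartbeats 4000000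

/-- the check of a long node -/
def chkN (D : ChevalleyDatum) (i : ℕ) : Bool :=
  (List.range D.nroots).all fun s => decide (HMatDiagAll.expo D (D.simple i) s = D.cartan i s ∧ -2 ≤ D.cartan i s ∧
    D.cartan i s ≤ 2 ∧ (D.cartan i s = 2 ↔ s = D.simple i))

theorem chkN_G2 : chkN chevG2 1 = true := by decide +kernel
theorem chkN_B2 : chkN chevB2 1 = true := by decide +kernel
theorem chkN_D4 : chkN chevD4 0 = true := by decide +kernel
theorem chkN_F4 : chkN chevF4 3 = true := by decide +kernel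
theorem chkN_E6 : chkN chevE6 0 = true := by decide +kernel
theorem chkN_E7 : chkN chevE7 0 = true := by decide +kernel
theorem chkN_E8 : chkN chevE8 0 = true := by decide +kernel

end Tab

/-- **the long node** -/
theorem exists_node {D : ChevalleyDatum} {l : ℕ} {M : CoxeterMatrix (Fin l)} (hp : IsType D l M) :
    ∃ i : Fin l, chkN D i = true := by
  have h0 : ∀ (D : ChevalleyDatum) (n : Σ n : ℕ, CoxeterMatrix (Fin n)), (D, n) ∈ typeList →
      ∃ i : Fin n.1, chkN D i = true := by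
    intro D n h
    simp only [typeList, List.mem_cons, List.not_mem_nil, or_false, Prod.mk.injEq] at h
    rcases h with ⟨rfl, rfl⟩ | ⟨rfl, rfl⟩ | ⟨rfl, rfl⟩ | ⟨rfl, rfl⟩ | ⟨rfl, rfl⟩ | ⟨rfl, rfl⟩ | ⟨rfl, rfl⟩
    · exact ⟨(1 : Fin 2), chkN_G2⟩
    · exact ⟨(1 : Fin 2), chkN_B2⟩
    · exact ⟨(0 : Fin 4), chkN_D4⟩
    · exact ⟨(3 : Fin 4), chkN_F4⟩
    · exact ⟨(0 : Fin 6), chkN_E6⟩
    · exact ⟨(0 : Fin 7), chkN_E7⟩
    · exact ⟨(0 : Fin 8), chkN_E8⟩
  exact h0 D ⟨l, M⟩ hp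

theorem chkN_iff {D : ChevalleyDatum} {i : ℕ} (h : chkN D i = true) {s : ℕ} (hs : s < D.nroots) :
    HMatDiagAll.expo D (D.simple i) s = D.cartan i s ∧ -2 ≤ D.cartan i s ∧
    D.cartan i s ≤ 2 ∧ (D.cartan i s = 2 ↔ s = D.simple i) := by
  unfold chkN at h
  rw [List.all_eq_true] at h
  exact of_decide_eq_true (h s (List.mem_range.2 hs))

section Main

variable {D : ChevalleyDatum} {l : ℕ} {M : CoxeterMatrix (Fin l)} (hp : IsType D l M)
  {F : Type u} {k : Type v} [Field F] [Field k]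

/-- the matrix of `h_i(z)` -/
theorem coe_hc {i : Fin l} (hi : chkN D i = true) {z : k} (hz : z ≠ 0) :
    (((hc hp i z : ↥(D.group k)) : GL D.Idx k) : Matrix D.Idx D.Idx k) =
      Matrix.diagonal (Sum.elim (fun _ => (1 : k)) (fun s : Fin D.nroots => z ^ D.cartan i s.val)) := by
  show ((hG hp.inList (D.simple i) z : GL D.Idx k) : Matrix D.Idx D.Idx k) = _
  rw [coe_hG, HMatDiagAll.hMat_eq_diagonal hp.inList (simple_lt hp.inList (lt_rank hp i)) hz]
  congr 2
  funext s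
  rw [(chkN_iff hi s.2).1]

include hp in
/-- **the element `y`, matrix form** -/
theorem exists_y_diag [Fintype F] (f : F →+* k) {i : Fin l} (hi : chkN D i = true) (z : kˣ)
    (hz : (z : k) ^ (Fintype.card F - 1) = 1 ∨ ((z : k) ^ (Fintype.card F + 1) = 1 ∧ (z : k) ^ 2 ≠ 1)) :
    ∃ y ∈ D.group F, ∃ g ∈ D.group k, ((y : GL D.Idx F) : Matrix D.Idx D.Idx F).map f =
      (g : GL D.Idx k).val * Matrix.diagonal (Sum.elim (fun _ => (1 : k))
        (fun s : Fin D.nroots => (z : k) ^ D.cartan i s.val)) * (g⁻¹ : GL D.Idx k).val := by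
  obtain ⟨y, g, h⟩ := exists_y hp f i z hz
  refine ⟨y.1, y.2, g.1, g.2, ?_⟩
  have h1 := congrArg (fun x : ↥(D.group k) => ((x : GL D.Idx k) : Matrix D.Idx D.Idx k)) h
  simp only [Subgroup.coe_mul, Units.val_mul] at h1
  rw [coe_hc hp hi z.ne_zero] at h1
  exact h1

end Main

/-! ### the interface `HasElt` -/

section Elt

open Cfsg.Agent.H234.HT Polynomial

/-- the exponents -/
def exN (D : ChevalleyDatum) (i N : ℕ) : D.Idx → ℕ :=
  Sum.elim (fun _ => 0) (fun s : Fin D.nroots => (D.cartan i s.val % (N : ℤ)).toNat)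

theorem pow_exN {k : Type*} [Field k] (D : ChevalleyDatum) (i : ℕ) {N : ℕ} (hN : N ≠ 0) {z : k} (hz : z ^ N = 1)
    (j : D.Idx) : z ^ exN D i N j = (Sum.elim (fun _ => (1 : k))
        (fun s : Fin D.nroots => z ^ D.cartan i s.val) : D.Idx → k) j := by
  have hz0 : z ≠ 0 := by
    rintro rfl
    rw [zero_pow hN] at hz
    exact zero_ne_one hz
  rcases j with j | s
  · show z ^ 0 = 1
    rw [pow_zero]
  · show z ^ (D.cartan i s.val % (N : ℤ)).toNat = z ^ D.cartan i s.val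
    have h1 : (0 : ℤ) ≤ D.cartan i s.val % (N : ℤ) := Int.emod_nonneg _ (by exact_mod_cast hN)
    rw [← zpow_natCast, Int.toNat_of_nonneg h1]
    conv_rhs => rw [← Int.emod_add_mul_ediv (D.cartan i s.val) (N : ℤ)]
    rw [zpow_add₀ hz0, zpow_mul, zpow_natCast, hz, one_zpow, mul_one]

theorem exN_mod (D : ChevalleyDatum) (i : ℕ) {N N' : ℕ} (hN' : 5 ≤ N') (hd : N' ∣ N) (hN : N ≠ 0)
    (hi : chkN D i = true) (s : Fin D.nroots) :
    exN D i N (Sum.inr s) % N' = 2 % N' ↔ s.val = D.simple i := by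
  obtain ⟨-, h1, h2, h3⟩ := chkN_iff hi s.2
  rw [← h3]
  show (D.cartan i s.val % (N : ℤ)).toNat % N' = 2 % N' ↔ _
  have h4 : (0 : ℤ) ≤ D.cartan i s.val % (N : ℤ) := Int.emod_nonneg _ (by exact_mod_cast hN)
  have h5 : (((D.cartan i s.val % (N : ℤ)).toNat : ℕ) : ℤ) = D.cartan i s.val % (N : ℤ) := Int.toNat_of_nonneg h4
  have h6 : (((D.cartan i s.val % (N : ℤ)).toNat % N' : ℕ) : ℤ) = D.cartan i s.val % (N' : ℤ) := by
    rw [Int.natCast_mod, h5]
    exact Int.emod_emod_of_dvd _ (by exact_mod_cast hd)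
  have h7 : 2 % N' = 2 := Nat.mod_eq_of_lt (by omega)
  rw [h7]
  constructor
  · intro h
    rw [h] at h6
    have h8 : ((2 : ℕ) : ℤ) = D.cartan i s.val % (N' : ℤ) := h6
    have h9 : (N' : ℤ) ∣ D.cartan i s.val - 2 := by
      have := Int.emod_add_mul_ediv (D.cartan i s.val) (N' : ℤ)
      exact ⟨D.cartan i s.val / (N' : ℤ), by push_cast at h8; linarith⟩
    obtain ⟨c, hc⟩ := h9
    have h10 : (5 : ℤ) ≤ N' := by exact_mod_cast hN'
    have h11 : c = 0 := by
      by_contra hc0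
      rcases lt_or_gt_of_ne hc0 with h | h
      · nlinarith
      · nlinarith
    rw [h11, mul_zero] at hc
    linarith
  · intro h
    have h8 : D.cartan i s.val % (N' : ℤ) = 2 := by
      rw [h]
      exact Int.emod_eq_of_lt (by norm_num) (by
        have : (5 : ℤ) ≤ N' := by exact_mod_cast hN'
        linarith)
    rw [h8] at h6
    exact_mod_cast h6

theorem cnt_exN {D : ChevalleyDatum} {i p m : ℕ} (hpp : p.Prime) (hp5 : 5 ≤ p) (hm : 2 ≤ m)
    (hi : chkN D i = true) (hs : D.simple i < D.nroots) : Cnt p m (exN D i (p ^ m)) := by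
  have hN : 5 ≤ p ^ (m - 1) := hp5.trans (Nat.le_self_pow (by omega) p)
  have hd : p ^ (m - 1) ∣ p ^ m := pow_dvd_pow _ (by omega)
  refine ⟨2, fun h => ?_, Or.inl ?_⟩
  · have := Nat.le_of_dvd (by norm_num) h
    omega
  · have h1 : (Finset.univ.filter fun j => exN D i (p ^ m) j % p ^ (m - 1) = 2 % p ^ (m - 1)) =
        {Sum.inr ⟨D.simple i, hs⟩} := by
      ext j
      rw [Finset.mem_filter, Finset.mem_singleton]
      rcases j with j | s
      · constructor
        · rintro ⟨-, h⟩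
          exfalso
          have h2 : (0 : ℕ) % p ^ (m - 1) = 2 % p ^ (m - 1) := h
          rw [Nat.zero_mod, Nat.mod_eq_of_lt (by omega)] at h2
          omega
        · intro h
          cases h
      · rw [exN_mod D i hN hd (pow_ne_zero _ hpp.ne_zero) hi]
        constructor
        · rintro ⟨-, h⟩
          congr 1
          exact Fin.ext h
        · intro h
          refine ⟨Finset.mem_univ _, ?_⟩
          have h2 := Sum.inr_injective h
          rw [h2]
    rw [h1, Finset.card_singleton]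
    exact hpp.one_lt.ne' ∘ Nat.dvd_one.1

variable {D : ChevalleyDatum} {l : ℕ} {M : CoxeterMatrix (Fin l)} (hp : IsType D l M)

theorem eig_of_conj {F : Type u} {k : Type v} [Field F] [Field k] (f : F →+* k) {i N : ℕ} (hN : N ≠ 0) {z : k}
    (hz : z ^ N = 1) {A : Matrix D.Idx D.Idx F} (g : GL D.Idx k)
    (h : A.map f = g.val * Matrix.diagonal (Sum.elim (fun _ => (1 : k))
        (fun s : Fin D.nroots => z ^ D.cartan i s.val)) * (g⁻¹).val) : Eig A f z (exN D i N) := by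
  unfold Eig
  have h6 := Matrix.charpoly_diagonal (fun j : D.Idx => z ^ exN D i N j)
  rw [show (fun j => z ^ exN D i N j) = (Sum.elim (fun _ => (1 : k))
        (fun s : Fin D.nroots => z ^ D.cartan i s.val) : D.Idx → k) from
    funext fun j => pow_exN D i hN hz j] at h6
  rw [← h6, h, Matrix.coe_units_inv, Matrix.charpoly_units_conj]

/-- a primitive root of order `p ^ m` -/
theorem exists_root {F : Type} [Field F] [Finite F] {p : ℕ} (hpp : p.Prime) (hpq : ¬ p ∣ Nat.card F) (m : ℕ) :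
    ∃ z : AlgebraicClosure F, IsPrimitiveRoot z (p ^ m) := by
  have : Fintype F := Fintype.ofFinite F
  rw [Nat.card_eq_fintype_card] at hpq
  have hpF : ((p : ℕ) : F) ≠ 0 := by
    intro h0
    obtain ⟨r, hr⟩ := CharP.exists F
    have hrp : r ∣ p := (CharP.cast_eq_zero_iff F r p).1 h0
    have hrne : r ≠ 1 := CharP.char_ne_one F r
    have hrp' : r = p := ((Nat.dvd_prime hpp).1 hrp).resolve_left hrne
    subst hrp'
    obtain ⟨n, -, hn⟩ := FiniteField.card F r
    apply hpq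
    rw [hn]
    exact dvd_pow_self _ n.2.ne'
  have hne : NeZero ((p ^ m : ℕ) : AlgebraicClosure F) := ⟨by
    rw [Nat.cast_pow]
    refine pow_ne_zero _ fun h => hpF ?_
    rw [← map_natCast (algebraMap F (AlgebraicClosure F)), ← map_zero (algebraMap F (AlgebraicClosure F))] at h
    exact (algebraMap F (AlgebraicClosure F)).injective h⟩
  exact HasEnoughRootsOfUnity.exists_primitiveRoot (AlgebraicClosure F) (p ^ m)

theorem pow_cases {k : Type*} [Field k] {q p : ℕ} (hq1 : 1 < q) (hpp : p.Prime) (hp2 : p ≠ 2)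
    (he : orderOf ((q : ℕ) : ZMod p) = 1 ∨ orderOf ((q : ℕ) : ZMod p) = 2)
    {m : ℕ} (hm : 2 ≤ m) (h1 : p ^ m ∣ q ^ orderOf ((q : ℕ) : ZMod p) - 1) {z : k} (hz : IsPrimitiveRoot z (p ^ m)) :
    z ^ (q - 1) = 1 ∨ (z ^ (q + 1) = 1 ∧ z ^ 2 ≠ 1) := by
  rcases he with he | he
  · left
    rw [he, pow_one] at h1
    exact (hz.pow_eq_one_iff_dvd _).2 h1
  · right
    have hp3 : 3 ≤ p := by
      have := hpp.two_le
      omega
    constructor
    · rw [he] at h1
      have h2 : ¬ p ∣ q - 1 := by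
        intro h
        have h3 : ((q : ℕ) : ZMod p) = 1 := by
          have h4 : ((q - 1 : ℕ) : ZMod p) = 0 := (ZMod.natCast_eq_zero_iff _ _).2 h
          have h5 : q = (q - 1) + 1 := by omega
          rw [h5, Nat.cast_add, h4, Nat.cast_one, zero_add]
        rw [h3, orderOf_one] at he
        omega
      have h3 : q ^ 2 - 1 = (q + 1) * (q - 1) := by
        have := Nat.sq_sub_sq q 1
        rwa [one_pow] at this
      rw [h3] at h1
      refine (hz.pow_eq_one_iff_dvd _).2 ?_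
      exact (Nat.Coprime.pow_left m ((Nat.Prime.coprime_iff_not_dvd hpp).2 h2)).dvd_of_dvd_mul_right h1
    · intro h
      have h2 := Nat.le_of_dvd (by norm_num) ((hz.pow_eq_one_iff_dvd _).1 h)
      have h3 : p ≤ p ^ m := Nat.le_self_pow (by omega) p
      omega

include hp in
/-- the reduction of `HasElt` to the count, `e = 1` or `2` -/
theorem elt_of_cnt {F : Type} [Field F] [Finite F] {p : ℕ} (hpp : p.Prime) (hp2 : p ≠ 2)
    (hpq : ¬ p ∣ Nat.card F) (he : orderOf ((Nat.card F : ℕ) : ZMod p) = 1 ∨ orderOf ((Nat.card F : ℕ) : ZMod p) = 2)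
    {m : ℕ} (hm : 2 ≤ m) (h1 : p ^ m ∣ Nat.card F ^ orderOf ((Nat.card F : ℕ) : ZMod p) - 1) {i : Fin l}
    (hi : chkN D i = true) (hc : Cnt p m (exN D i (p ^ m))) :
    ∃ y ∈ D.group F, ∃ (k : Type) (_ : Field k) (f : F →+* k) (z : k) (ex : D.Idx → ℕ),
      IsPrimitiveRoot z (p ^ m) ∧ Eig (y : Matrix D.Idx D.Idx F) f z ex ∧ Cnt p m ex := by
  obtain ⟨z, hz⟩ := exists_root hpp hpq m
  have hpm0 : p ^ m ≠ 0 := pow_ne_zero _ hpp.ne_zero
  have hz0 : z ≠ 0 := hz.ne_zero hpm0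
  have hzz := pow_cases (q := Nat.card F) Finite.one_lt_card hpp hp2 he hm h1 hz
  have : Fintype F := Fintype.ofFinite F
  rw [Nat.card_eq_fintype_card] at hzz
  obtain ⟨y, hy, g, -, hyg⟩ := exists_y_diag hp (algebraMap F (AlgebraicClosure F)) hi (Units.mk0 z hz0) hzz
  exact ⟨y, hy, AlgebraicClosure F, inferInstance, algebraMap F (AlgebraicClosure F), z, exN D i (p ^ m), hz,
    eig_of_conj _ hpm0 hz.pow_eq_one g hyg, hc⟩

include hp in
/-- **`e = 1` or `2`, `5 ≤ p`** -/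
theorem hasElt_node {F : Type} [Field F] [Finite F] {p : ℕ} (hpp : p.Prime) (hp5 : 5 ≤ p)
    (hpq : ¬ p ∣ Nat.card F) (he : orderOf ((Nat.card F : ℕ) : ZMod p) = 1 ∨ orderOf ((Nat.card F : ℕ) : ZMod p) = 2) :
    HasElt p (D.group F) (Nat.card F) := by
  intro m hm h1 _
  obtain ⟨i, hi⟩ := exists_node hp
  exact elt_of_cnt hp hpp (by omega) hpq he hm h1 hi
    (cnt_exN hpp hp5 hm hi (simple_lt hp.inList (lt_rank hp i)))

end Elt

end Cfsg.Agent.H120.HT
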